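/-
Project LOW4, job M27: a model of `2 A₇` in `GL₄`.
-/
import Cfsg.Agent.Low4.Defs3
import Cfsg.Agent.S3335

set_option autoImplicit false
set_option linter.unusedSectionVars false

namespace CL.Low4

open Matrix Cfsg Cfsg.Geo CL.Asch CL.SLn CL.Low Module
open scoped commutatorElement MatrixGroups

universe u

namespace M27x

/-- `ℤ[b]`, `b² = -b - 2` -/
abbrev R := QuadraticAlgebra ℤ (-2) (-1)

abbrev MR := Matrix (Fin 4) (Fin 4) R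

def A0 : MR := !![⟨-2, 1⟩, ⟨0, 1⟩, ⟨0, 1⟩, ⟨0, 0⟩; ⟨2, 1⟩, ⟨0, -1⟩, ⟨0, -1⟩, ⟨-2, 0⟩; ⟨2, 0⟩, ⟨0, 0⟩, ⟨0, 0⟩, ⟨2, 0⟩;
  ⟨0, -1⟩, ⟨0, -1⟩, ⟨-2, -1⟩, ⟨-2, 0⟩]
def A1 : MR := !![⟨0, -1⟩, ⟨-2, -1⟩, ⟨0, 0⟩, ⟨0, 0⟩; ⟨0, -1⟩, ⟨0, 1⟩, ⟨0, 0⟩, ⟨0, 0⟩; ⟨-2, 0⟩, ⟨0, 0⟩, ⟨-2, 0⟩, ⟨0, 2⟩;
  ⟨0, 1⟩, ⟨0, 1⟩, ⟨2, 2⟩, ⟨2, 0⟩]
def A2 : MR := !![⟨0, 1⟩, ⟨2, 1⟩, ⟨0, -1⟩, ⟨0, 0⟩; ⟨2, 1⟩, ⟨0, -1⟩, ⟨0, 1⟩, ⟨2, 0⟩; ⟨0, -2⟩, ⟨0, 0⟩, ⟨2, 0⟩, ⟨0, -2⟩;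
  ⟨-2, -1⟩, ⟨-2, -1⟩, ⟨-2, -1⟩, ⟨-2, 0⟩]
def A3 : MR := !![⟨-2, -2⟩, ⟨-2, 0⟩, ⟨0, 1⟩, ⟨0, 0⟩; ⟨-2, 2⟩, ⟨2, 2⟩, ⟨0, -1⟩, ⟨-2, 0⟩; ⟨2, 2⟩, ⟨0, 0⟩, ⟨0, 2⟩, ⟨2, 2⟩;
  ⟨2, 0⟩, ⟨2, 0⟩, ⟨2, -1⟩, ⟨0, -2⟩]
def A4 : MR := !![⟨2, 0⟩, ⟨0, -2⟩, ⟨-2, -1⟩, ⟨0, 0⟩; ⟨-2, -2⟩, ⟨-2, 0⟩, ⟨2, 1⟩, ⟨0, -2⟩; ⟨0, 0⟩, ⟨0, 0⟩, ⟨-2, -2⟩, ⟨-4, 0⟩;
  ⟨0, 0⟩, ⟨0, 0⟩, ⟨0, 1⟩, ⟨2, 2⟩]
def A : Fin 5 → MR := ![A0, A1, A2, A3, A4]
def B : Fin 5 → MR := ![A0 * A0, (-2 : R) • A1, (-2 : R) • A2, (-2 : R) • A3, (-2 : R) • A4]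
def Y : MR := !![⟨0, 1⟩, ⟨0, 0⟩, ⟨0, 0⟩, ⟨-2, -1⟩; ⟨2, -1⟩, ⟨0, 0⟩, ⟨0, 0⟩, ⟨0, 1⟩; ⟨0, 0⟩, ⟨2, 0⟩, ⟨2, 0⟩, ⟨2, 0⟩;
  ⟨-2, -1⟩, ⟨-2, 0⟩, ⟨0, 0⟩, ⟨0, -1⟩]
def Z : MR := !![⟨2, 0⟩, ⟨0, -1⟩, ⟨0, -1⟩, ⟨0, -1⟩; ⟨-4, -2⟩, ⟨-2, 1⟩, ⟨0, 1⟩, ⟨0, -1⟩; ⟨0, 2⟩, ⟨2, 2⟩, ⟨2, 0⟩, ⟨-2, 0⟩;
  ⟨0, 0⟩, ⟨0, -1⟩, ⟨-2, -1⟩, ⟨0, 1⟩]
def Nz : MR := !![⟨-8, -8⟩, ⟨4, -4⟩, ⟨4, 4⟩, ⟨-1, 1⟩; ⟨-16, 0⟩, ⟨-8, -8⟩, ⟨8, 0⟩, ⟨0, 0⟩; ⟨16, 16⟩, ⟨-8, 8⟩, ⟨-4, -4⟩, ⟨0, 0⟩;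
  ⟨16, 0⟩, ⟨0, 0⟩, ⟨0, 0⟩, ⟨0, 0⟩]
def Ny : MR := !![⟨8, 8⟩, ⟨4, -4⟩, ⟨-6, -2⟩, ⟨0, 0⟩; ⟨0, -16⟩, ⟨-16, 0⟩, ⟨4, 4⟩, ⟨0, 0⟩; ⟨-20, 4⟩, ⟨6, 2⟩, ⟨-1, -3⟩, ⟨-8, -8⟩;
  ⟨16, 0⟩, ⟨0, 0⟩, ⟨0, 0⟩, ⟨0, 0⟩]
def P : MR := of fun _ => ![⟨1, 0⟩, ⟨0, 0⟩, ⟨0, 1⟩, ⟨0, 1⟩]
def Mz : MR := of fun k => (Z ^ k.1) 3
def My : MR := of fun k => if k = 3 then P 3 else (Y ^ k.1) 3
def om : R := ⟨0, 1⟩

theorem cAB : ∀ i, A i * B i = (2 : R) ^ 3 • (1 : MR) := by decide +kernel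
theorem c0 : A 0 ^ 3 = (2 : R) ^ 3 • (1 : MR) := by decide +kernel
theorem c1 : ∀ i : Fin 5, 1 ≤ i.1 → A i ^ 2 = (2 : R) ^ 2 • (-1 : MR) := by decide +kernel
theorem c2 : ∀ i j : Fin 5, j.1 = i.1 + 1 → (A i * A j) ^ 3 = (2 : R) ^ 6 • (-1 : MR) := by decide +kernel
theorem c3 : ∀ i j : Fin 5, i.1 + 1 < j.1 → (A i * A j) ^ 2 = (2 : R) ^ 4 • (-1 : MR) := by decide +kernel
theorem cY : A 3 * A 0 * A 1 * A 4 = (2 : R) ^ 3 • Y := by decide +kernel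
theorem cZ : A 2 * Y = (2 : R) ^ 1 • Z := by decide +kernel
theorem cY3 : Y ^ 3 = (2 : R) ^ 3 • (1 : MR) := by decide +kernel
theorem cchi : (Z - (2 : R) • (1 : MR)) * (Z ^ 3 - (2 * om) • Z ^ 2 - (2 ^ 2 * (1 + om)) • Z - (2 : R) ^ 3 • (1 : MR)) = 0 := by
  decide +kernel
theorem cNz : Nz * Mz = (2 : R) ^ 4 • (1 : MR) := by decide +kernel
theorem cNy : Ny * My = (2 : R) ^ 4 • (1 : MR) := by decide +kernel
theorem cP : P * Y = (2 : R) • P := by decide +kernel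
theorem cj4 : A 4 * A 2 = -(A 2 * A 4) := by decide +kernel

variable {F : Type u} [Field F] (φ : R →+* F)

theorem map_sm (c : R) (X : MR) : φ.mapMatrix (c • X) = φ c • φ.mapMatrix X := by
  ext i j; simp

theorem map_two (n : ℕ) (X : MR) : φ.mapMatrix ((2 : R) ^ n • X) = (2 : F) ^ n • φ.mapMatrix X := by
  rw [map_sm, map_pow, map_ofNat]

/-- `2 ^ n g` is the image of `X` -/
def Rp (n : ℕ) (X : MR) (g : G F) : Prop := (2 : F) ^ n • g.val = φ.mapMatrix X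

variable {φ} {n k : ℕ} {X X' : MR} {g g' : G F}

theorem Rp.mul (h : Rp φ n X g) (h' : Rp φ k X' g') : Rp φ (n + k) (X * X') (g * g') := by
  unfold Rp at *
  rw [map_mul, ← h, ← h', smul_mul_smul_comm, pow_add, Units.val_mul]

theorem Rp.pow (h : Rp φ n X g) (k : ℕ) : Rp φ (n * k) (X ^ k) (g ^ k) := by
  unfold Rp at *
  rw [map_pow, ← h, smul_pow, pow_mul, Units.val_pow_eq_pow_val]

theorem Rp.neg (h : Rp φ n X g) : Rp φ n (-X) (-g) := by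
  unfold Rp at *
  rw [map_neg, ← h, Units.val_neg, smul_neg]

variable (h2 : (2 : F) ≠ 0)
include h2

theorem cancel {M N : Matrix (Fin 4) (Fin 4) F} (n : ℕ) (h : (2 : F) ^ n • M = (2 : F) ^ n • N) : M = N :=
  smul_right_injective _ (pow_ne_zero n h2) h

theorem Rp.red (h : Rp φ (k + n) X g) (e : X = (2 : R) ^ k • X') : Rp φ n X' g := by
  unfold Rp at *
  rw [e, map_two, pow_add, mul_smul] at h
  exact cancel h2 k h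

theorem Rp.eq (h : Rp φ n X g) (h' : Rp φ n X g') : g = g' := Units.ext (cancel h2 n (h.trans h'.symm))

theorem Rp.eq_one (h : Rp φ n X g) (e : X = (2 : R) ^ n • (1 : MR)) : g = 1 := by
  refine Units.ext (cancel h2 n ?_)
  rw [h, e, map_two, map_one, Units.val_one]

theorem Rp.eq_neg (h : Rp φ n X g) (e : X = (2 : R) ^ n • (-1 : MR)) : g = -1 := by
  refine Units.ext (cancel h2 n ?_)
  rw [h, e, map_two, map_neg, map_one, Units.val_neg, Units.val_one]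

theorem exists_rp (i : Fin 5) : ∃ g : G F, Rp φ 1 (A i) g := by
  have h : ((2 : F)⁻¹ • φ.mapMatrix (A i)) * (((2 : F) ^ 2)⁻¹ • φ.mapMatrix (B i)) = 1 := by
    rw [smul_mul_smul_comm, ← map_mul, cAB, map_two, map_one, smul_smul]
    rw [show (2 : F)⁻¹ * ((2 : F) ^ 2)⁻¹ * 2 ^ 3 = 1 by field_simp, one_smul]
  refine ⟨⟨_, _, h, mul_eq_one_comm.1 h⟩, ?_⟩
  change (2 : F) ^ 1 • ((2 : F)⁻¹ • φ.mapMatrix (A i)) = _
  rw [smul_smul, pow_one, mul_inv_cancel₀ h2, one_smul]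

theorem kill {M N : MR} (h : N * M = (2 : R) ^ 4 • (1 : MR)) {w : V F} (hw : ∀ i, (φ.mapMatrix M *ᵥ w) i = 0) :
    w = 0 := by
  have h1 : φ.mapMatrix M *ᵥ w = 0 := funext hw
  have h3 := congrArg (φ.mapMatrix N *ᵥ ·) h1
  simp only [mulVec_mulVec, mulVec_zero] at h3
  rw [← map_mul, h, map_two, map_one, smul_mulVec, one_mulVec] at h3
  exact (smul_eq_zero.1 h3).resolve_left (pow_ne_zero _ h2)

omit h2 in
theorem Rp.row (h : Rp φ n X g) {w : V F} {i : Fin 4} (hw : (g • w) i = 0) : (φ.mapMatrix X *ᵥ w) i = 0 := by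
  rw [← h, smul_mulVec, Pi.smul_apply, ← gsmul_def, hw, smul_zero]

omit h2 in
theorem chi_eq (b : F) (z : Matrix (Fin 4) (Fin 4) F) : (2 : F) ^ 4 • chi7 b z =
    ((2 : F) • z - (2 : F) • 1) * (((2 : F) • z) ^ 3 - (2 * b) • ((2 : F) • z) ^ 2 - (2 ^ 2 * (1 + b)) • ((2 : F) • z) -
      (2 : F) ^ 3 • 1) := by
  have e : ((2 : F) • z) ^ 3 - (2 * b) • ((2 : F) • z) ^ 2 - (2 ^ 2 * (1 + b)) • ((2 : F) • z) - (2 : F) ^ 3 • 1 =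
      (2 : F) ^ 3 • (z ^ 3 - b • z ^ 2 - (1 + b) • z - 1) := by
    rw [smul_pow, smul_pow]; module
  rw [e, ← smul_sub, smul_mul_smul_comm, chi7, ← pow_succ']

omit h2 in
/-- a group with these relations is perfect -/
theorem perf {H : Type*} [CommGroup H] (a : Fin 5 → H) (e : H) (r0 : a 0 ^ 3 = 1) (r1 : ∀ i : Fin 5, 1 ≤ i.1 → a i ^ 2 = e)
    (r2 : ∀ i j : Fin 5, j.1 = i.1 + 1 → (a i * a j) ^ 3 = e) (r3 : ∀ i j : Fin 5, i.1 + 1 < j.1 → (a i * a j) ^ 2 = e) :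
    ∀ i, a i = 1 := by
  have he : e = 1 := by
    have := r3 1 3 (by decide)
    rw [mul_pow, r1 1 (by decide), r1 3 (by decide)] at this
    simpa using this
  subst he
  have k : ∀ x : H, x ^ 3 = 1 → x ^ 2 = 1 → x = 1 := fun x h3 h2 => by rwa [pow_succ, h2, one_mul] at h3
  have a0 : a 0 = 1 := k _ r0 (by simpa only [mul_pow, r1 2 (by decide), mul_one] using r3 0 2 (by decide))
  have a1 : a 1 = 1 := k _ (by simpa only [a0, one_mul] using r2 0 1 rfl) (r1 1 (by decide))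
  have a2 : a 2 = 1 := k _ (by simpa only [a1, one_mul] using r2 1 2 rfl) (r1 2 (by decide))
  have a3 : a 3 = 1 := k _ (by simpa only [a2, one_mul] using r2 2 3 rfl) (r1 3 (by decide))
  have a4 : a 4 = 1 := k _ (by simpa only [a3, one_mul] using r2 3 4 rfl) (r1 4 (by decide))
  intro i
  fin_cases i
  exacts [a0, a1, a2, a3, a4]

omit h2 in
theorem hom_top {H : Type*} [Group H] (g : Fin 5 → G F) (f : Subgroup.closure (Set.range g) →* H) (L : Subgroup H)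
    (h : ∀ i, f ⟨g i, Subgroup.subset_closure ⟨i, rfl⟩⟩ ∈ L) (x : Subgroup.closure (Set.range g)) : f x ∈ L := by
  obtain ⟨x, hx⟩ := x
  induction hx using Subgroup.closure_induction with
  | mem x hx => obtain ⟨i, rfl⟩ := hx; exact h i
  | one => exact (map_one f).symm ▸ L.one_mem
  | mul x y hx hy h1 h2 => exact (map_mul f ⟨x, hx⟩ ⟨y, hy⟩).symm ▸ L.mul_mem h1 h2
  | inv x hx h1 => exact (map_inv f ⟨x, hx⟩).symm ▸ L.inv_mem h1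

omit h2 in
theorem grp (g : Fin 5 → G F) (r0 : g 0 ^ 3 = 1) (r1 : ∀ i : Fin 5, 1 ≤ i.1 → g i ^ 2 = -1)
    (r2 : ∀ i j : Fin 5, j.1 = i.1 + 1 → (g i * g j) ^ 3 = -1) (r3 : ∀ i j : Fin 5, i.1 + 1 < j.1 → (g i * g j) ^ 2 = -1)
    (ns : g 0 ∉ scalars (Fin 4) F) :
    ⁅Subgroup.closure (Set.range g), Subgroup.closure (Set.range g)⁆ = Subgroup.closure (Set.range g) ∧
      Nonempty (PQ (Subgroup.closure (Set.range g)) ≃* alternatingGroup (Fin 7)) := by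
  set K := Subgroup.closure (Set.range g) with hK
  let k : Fin 5 → K := fun i => ⟨g i, Subgroup.subset_closure ⟨i, rfl⟩⟩
  have hm : (-1 : G F) ∈ K := r1 1 (by decide) ▸ pow_mem (k 1).2 2
  let e : K := ⟨-1, hm⟩
  have s0 : k 0 ^ 3 = 1 := Subtype.ext r0
  have s1 : ∀ i : Fin 5, 1 ≤ i.1 → k i ^ 2 = e := fun i h => Subtype.ext (r1 i h)
  have s2 : ∀ i j : Fin 5, j.1 = i.1 + 1 → (k i * k j) ^ 3 = e := fun i j h => Subtype.ext (r2 i j h)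
  have s3 : ∀ i j : Fin 5, i.1 + 1 < j.1 → (k i * k j) ^ 2 = e := fun i j h => Subtype.ext (r3 i j h)
  constructor
  · refine Subgroup.isPerfect_iff.1 (Group.isPerfect_def.2 (eq_top_iff.2 fun x _ => ?_))
    rw [← Abelianization.ker_of]
    refine Subgroup.mem_bot.1 (hom_top g Abelianization.of ⊥ (fun i => Subgroup.mem_bot.2 ?_) x)
    refine perf (fun i => Abelianization.of (k i)) (Abelianization.of e) ?_ (fun i h => ?_) (fun i j h => ?_)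
      (fun i j h => ?_) i
    · rw [← map_pow, s0, map_one]
    · rw [← map_pow, s1 i h]
    · rw [← map_mul, ← map_pow, s2 i j h]
    · rw [← map_mul, ← map_pow, s3 i j h]
  · obtain ⟨ε⟩ := Cfsg.Agent.S3335.result 7 (by norm_num)
    let π : K →* PQ K := QuotientGroup.mk' _
    have he : π e = 1 := mk_eq_one_iff.2 (mem_scalars_iff'.2 ⟨-1, by simp [e]⟩)
    let f : Fin (7 - 2) → PQ K := fun i => π (k i)
    have hr : ∀ r ∈ ({g : FreeGroup (Fin (7 - 2)) | ∃ i : Fin (7 - 2), i.val = 0 ∧ g = FreeGroup.of i ^ 3} ∪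
        {g | ∃ i : Fin (7 - 2), 1 ≤ i.val ∧ g = FreeGroup.of i ^ 2} ∪
        {g | ∃ i j : Fin (7 - 2), j.val = i.val + 1 ∧ g = (FreeGroup.of i * FreeGroup.of j) ^ 3} ∪
        {g | ∃ i j : Fin (7 - 2), i.val + 1 < j.val ∧ g = (FreeGroup.of i * FreeGroup.of j) ^ 2}),
        FreeGroup.lift f r = 1 := by
      rintro r (((⟨i, hi, rfl⟩ | ⟨i, hi, rfl⟩) | ⟨i, j, hi, rfl⟩) | ⟨i, j, hi, rfl⟩) <;>
        simp only [map_pow, map_mul, FreeGroup.lift_apply_of, f]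
      · obtain rfl : i = (0 : Fin 5) := Fin.ext hi
        rw [← map_pow, s0, map_one]
      · rw [← map_pow, s1 i hi, he]
      · rw [← map_mul, ← map_pow, s2 i j hi, he]
      · rw [← map_mul, ← map_pow, s3 i j hi, he]
    let ψ := PresentedGroup.toGroup hr
    haveI : IsSimpleGroup (alternatingGroup (Fin 7)) := alternatingGroup.isSimpleGroup (by simp)
    haveI := ε.isSimpleGroup
    have hinj : Function.Injective ψ := by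
      rw [← MonoidHom.ker_eq_bot_iff]
      refine (MonoidHom.normal_ker ψ).eq_bot_or_eq_top.resolve_right fun h => ns ?_
      have : ψ (PresentedGroup.of (0 : Fin 5)) = 1 := MonoidHom.mem_ker.1 (h ▸ Subgroup.mem_top _)
      rw [PresentedGroup.toGroup.of] at this
      exact mk_eq_one_iff.1 this
    have hsurj : Function.Surjective ψ := fun y => by
      obtain ⟨x, rfl⟩ := QuotientGroup.mk'_surjective _ y
      exact hom_top g π ψ.range (fun i => ⟨PresentedGroup.of i, PresentedGroup.toGroup.of hr⟩) x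
    exact ⟨(MulEquiv.ofBijective ψ ⟨hinj, hsurj⟩).symm.trans ε⟩

end M27x

open M27x in
theorem subM27 : SubM27.{u} := by
  intro F _ _ b h2 hb
  let φ : R →+* F := (QuadraticAlgebra.lift (R := ℤ) (a := -2) (b := -1) (A := F)
    ⟨b, by simp only [zsmul_eq_mul]; push_cast; linear_combination hb⟩).toRingHom
  have hom : φ om = b := by simp [φ, om]
  choose g hg using exists_rp (φ := φ) h2
  have r1 : ∀ i : Fin 5, 1 ≤ i.1 → g i ^ 2 = -1 := fun i h => ((hg i).pow 2).eq_neg h2 (c1 i h)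
  obtain ⟨hp, hi⟩ := grp g (((hg 0).pow 3).eq_one h2 c0) r1
    (fun i j h => (((hg i).mul (hg j)).pow 3).eq_neg h2 (c2 i j h))
    (fun i j h => (((hg i).mul (hg j)).pow 2).eq_neg h2 (c3 i j h)) (fun h => by
      obtain ⟨c, hc⟩ := mem_scalars_iff'.1 h
      have := congrFun (congrFun (hg 0) 2) 0
      rw [hc] at this
      have e : φ (A 0 2 0) = 2 := by rw [show A 0 2 0 = 2 by decide +kernel, map_ofNat]
      exact h2 (e.symm.trans (this.symm.trans (by simp))))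
  have mem : ∀ i, g i ∈ Subgroup.closure (Set.range g) := fun i => Subgroup.subset_closure ⟨i, rfl⟩
  have hy : Rp φ 1 Y (g 3 * g 0 * g 1 * g 4) := Rp.red h2 (k := 3) ((((hg 3).mul (hg 0)).mul (hg 1)).mul (hg 4)) cY
  have my : g 3 * g 0 * g 1 * g 4 ∈ Subgroup.closure (Set.range g) :=
    mul_mem (mul_mem (mul_mem (mem 3) (mem 0)) (mem 1)) (mem 4)
  generalize g 3 * g 0 * g 1 * g 4 = y at hy my
  have hz : Rp φ 1 Z (g 2 * y) := Rp.red h2 (k := 1) ((hg 2).mul hy) cZ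
  refine ⟨_, g 2, y, hp, hi, mem 2, my, by rw [← pow_two, r1 2 (by decide)], (hy.pow 3).eq_one h2 cY3, ?_,
    ⟨g 4, ((hg 4).mul (hg 2)).eq h2 (cj4 ▸ ((hg 2).mul (hg 4)).neg)⟩, ⟨LinearMap.proj 3, fun w hw => ?_⟩,
    ⟨LinearMap.proj 3, (LinearMap.proj 3).comp (toLin' (φ.mapMatrix P)), fun w => ?_, fun w hw hm => ?_⟩⟩
  · refine cancel h2 4 ?_
    have hz' : (2 : F) • (g 2 * y).val = φ.mapMatrix Z := by rw [← hz, pow_one]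
    have := congrArg φ.mapMatrix cchi
    simp only [map_mul, map_sub, map_sm, map_pow, map_add, map_one, map_zero, map_ofNat, hom] at this
    rw [chi_eq, hz', this, smul_zero]
  · exact kill h2 cNz fun i => (hz.pow i.1).row (hw i.1 i.2)
  · have e : φ.mapMatrix P * y.val = φ.mapMatrix P := by
      refine cancel h2 1 ?_
      rw [← mul_smul_comm, hy, ← map_mul, cP, map_sm, map_ofNat, pow_one]
    change (φ.mapMatrix P *ᵥ (y.val *ᵥ w)) 3 = (φ.mapMatrix P *ᵥ w) 3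
    rw [mulVec_mulVec, e]
  · refine kill (φ := φ) h2 cNy fun i => ?_
    fin_cases i
    exacts [(hy.pow 0).row (hw 0 (by norm_num)), (hy.pow 1).row (hw 1 (by norm_num)),
      (hy.pow 2).row (hw 2 (by norm_num)), hm]

end CL.Low4
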